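import Groth.Agent.Sga7.H763.Cov
import Groth.Agent.Sga7.H560.QCov
import Groth.Agent.Sga7.H144.TowerRing
import Groth.Agent.Etrest.SHPoint

/-!
# The context on the universal cover of `G_m`
-/

set_option autoImplicit false
set_option backward.isDefEq.respectTransparency.types false
universe u

open CategoryTheory CategoryTheory.Limits AlgebraicGeometry Opposite IsLocalRing

namespace Groth.Agent.Sga7.H763.CtxInst

open Dia ToD GmPow StepSq BCn Cov

variable (k : Type u) [Field k]

theorem smooth_strN : Smooth (str k ℕ) := by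
  have h : Smooth (Spec.map (CommRingCat.ofHom (Polynomial.C : k →+* Polynomial k))) := by
    rw [HasRingHomProperty.Spec_iff (P := @Smooth)]
    have h : Algebra.Smooth k (Polynomial k) := inferInstance
    exact RingHom.smooth_algebraMap.2 h
  have e : toD k (pw (Polynomial.X : Polynomial k)) ≫ str k ℕ =
      Spec.map (CommRingCat.ofHom (Polynomial.C : k →+* Polynomial k)) :=
    toD_str k (pw (Polynomial.X : Polynomial k))
  rw [← e] at h
  exact (MorphismProperty.cancel_left_of_respectsIso @Smooth
    (toD k (pw (Polynomial.X : Polynomial k))) (str k ℕ)).1 h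

theorem smooth_strZ : Smooth (str k ℤ) := by
  have h := smooth_strN k
  rw [← Dm_str k (Nat.castAddMonoidHom ℤ)]
  infer_instance

theorem smooth_str (r : ℕ) : Smooth (str k (Fin r → ℤ)) := by
  induction r with
  | zero =>
    have : IsIso (str k (Fin 0 → ℤ)) := inferInstance
    infer_instance
  | succ r ih =>
    have h := isPullback_str k (c0 ℤ r) (cs ℤ r) (bij_cons ℤ r)
    have h1 : Smooth (Dm k (cs ℤ r)) := MorphismProperty.of_isPullback h (smooth_strZ k)
    rw [← Dm_str k (cs ℤ r)]
    infer_instance

variable [IsAlgClosed k] [CharZero k]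

theorem ctx {n : ℕ} (hn : n ≠ 0) : Ctx k n where
  hn := hn
  cyc := Groth.Agent.Sga7.H560.QCov.exists_cyc k n (Nat.pos_of_ne_zero hn)
  int := Groth.Agent.Sga7.H560.QCov.isIntegralHom_tt k
  sm r := by
    have := smooth_str k r
    exact bcn_sm (Groth.Agent.Sga7.H938.StrictLocInd.isSmLim_of_smooth (str k (Fin r → ℤ))) (𝟙 _) hn
  hQ := by
    refine ⟨fun q hq => Groth.Agent.Sga7.H144.TowerRing.H_towerRing k n (Nat.pos_of_ne_zero hn) q hq, ?_⟩
    have : ConnectedSpace (D k ℚ) := Groth.Agent.Sga7.H144.TowerRing.connectedSpace k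
    exact Groth.Agent.Etrest.SHPoint.nonempty_H0_const _ _

end Groth.Agent.Sga7.H763.CtxInst
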