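import Groth.Agent.Sga7.H763.Tower
import Groth.Agent.Sga7.H763.CtxInst
import Groth.Agent.Sga7.H763.LatIso
import Groth.Agent.Sga7.H77.Decomp
import Groth.Agent.Sga7.H77.HSigma

/-!
# Nearby cycles of a normal crossings divisor in equal characteristic zero
-/

set_option autoImplicit false
set_option backward.isDefEq.respectTransparency.types false
universe u

open CategoryTheory CategoryTheory.Limits AlgebraicGeometry Opposite IsLocalRing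

namespace Groth.Agent.Sga7.H763.Assemble

open Dia ToD GmPow StepSq NzSq HIso BCn Pt Cov Tower
open Groth.Agent.Sga4h.StalkAcyc

theorem mpw_muN {B : Type u} [CommRing B] {c : ℕ} (T : Fin c → B) (m : Fin c → ℕ) :
    (mpw T).comp (AddMonoidHom.toMultiplicative (muN m)) = pw (∏ i, T i ^ m i) := by
  refine MonoidHom.ext fun x => ?_
  obtain ⟨x, rfl⟩ := Multiplicative.ofAdd.surjective x
  change mpw T (Multiplicative.ofAdd (muN m x)) = _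
  rw [mpw_ofAdd, pw_ofAdd, ← Finset.prod_pow]
  refine Finset.prod_congr rfl fun i _ => ?_
  rw [← pow_mul, mul_comm (m i) x]
  rfl

variable {k : Type u} [Field k]

/-- The nearby fibre as a pull-back of the universal cover of `G_m`. -/
theorem exists_sqY {V Osh Ω : Type u} [CommRing V] [CommRing Osh] [CommRing Ω] [Algebra k V]
    [Algebra k Osh] (α : V →ₐ[k] Osh) (ω : V →+* Ω) (π : V)
    {b : Spec (CommRingCat.of Ω) ⟶ D k ℚ}
    (hb : IsPullback (Spec.map (CommRingCat.ofHom ω)) b (toD k (pw π)) (Dm k nq)) {c : ℕ}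
    (T : Fin c → Osh) (m : Fin c → ℕ) (hm : ∀ i, 0 < m i) (hprod : ∏ i, T i ^ m i = α π)
    {Y : Scheme.{u}} {y₁ : Y ⟶ Spec (CommRingCat.of Osh)} {y₂ : Y ⟶ Spec (CommRingCat.of Ω)}
    (sq : IsPullback y₁ y₂ (Spec.map (CommRingCat.ofHom (α : V →+* Osh)))
      (Spec.map (CommRingCat.ofHom ω)))
    {Y₀ : Scheme.{u}} {p₀ : Y₀ ⟶ Spec (CommRingCat.of Osh)} {v₀ : Y₀ ⟶ D k (Fin c → ℤ)}
    (sq₀ : IsPullback p₀ v₀ (toD k (mpw T)) (Dm k (nzr c))) :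
    ∃ (w : Y ⟶ Y₀) (z : Y ⟶ D k ℚ), IsPullback w z (v₀ ≫ Dm k (muZ m)) (Dm k zq) := by
  have e : toD k (mpw T) ≫ Dm k (muN m) =
      Spec.map (CommRingCat.ofHom (α : V →+* Osh)) ≫ toD k (pw π) := by
    rw [toD_Dm, mpw_muN, map_toD]
    congr 1
    refine MonoidHom.ext fun x => ?_
    obtain ⟨x, rfl⟩ := Multiplicative.ofAdd.surjective x
    rw [pw_ofAdd, hprod]
    exact (map_pow α π x).symm
  -- the two horizontal pastings
  have s1 : IsPullback p₀ (v₀ ≫ Dm k (muZ m)) (toD k (mpw T) ≫ Dm k (muN m)) (Dm k nz) :=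
    (sq₀.flip.paste_horiz (sq_nz m k hm).flip).flip
  have s2 : IsPullback y₁ (y₂ ≫ b) (Spec.map (CommRingCat.ofHom (α : V →+* Osh)) ≫ toD k (pw π))
      (Dm k nq) := (sq.flip.paste_horiz hb.flip).flip
  rw [← e] at s2
  have e2 : Dm k zq ≫ Dm k nz = Dm k nq := by
    rw [Dm_comp]
    congr 1
  rw [← e2] at s2
  have w1 : y₁ ≫ toD k (mpw T) ≫ Dm k (muN m) = ((y₂ ≫ b) ≫ Dm k zq) ≫ Dm k nz := by
    rw [s2.w]
    simp only [Category.assoc]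
  obtain ⟨w, hw1, hw2⟩ : ∃ w : Y ⟶ Y₀, w ≫ p₀ = y₁ ∧ w ≫ v₀ ≫ Dm k (muZ m) = (y₂ ≫ b) ≫ Dm k zq :=
    ⟨s1.lift _ _ w1, s1.lift_fst _ _ _, s1.lift_snd _ _ _⟩
  refine ⟨w, y₂ ≫ b, ?_⟩
  refine (IsPullback.of_bot ?_ hw2.symm s1.flip).flip
  rw [hw1]
  exact s2.flip

/-- The cohomology of the piece `Y₁ = Y₀ ×_{G_m} \tilde{G_m}`. -/
theorem hC_piece [IsAlgClosed k] [CharZero k] {n : ℕ} (hn : n ≠ 0) (hula : Ula k n)
    {r d : ℕ} (B : Type u) [CommRing B] [IsRegularLocalRing B] [HenselianLocalRing B]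
    [IsSepClosed (ResidueField B)] [Algebra k B] (T : Fin (r + 1) → B) (S : Fin d → B)
    (hspan : Ideal.span (Set.range T ∪ Set.range S) = maximalIdeal B)
    (hdim : ringKrullDim B = (r + 1 + d : ℕ))
    {Y₀ : Scheme.{u}} [IsAffine Y₀] {p₀ : Y₀ ⟶ Spec (CommRingCat.of B)} {v₀ : Y₀ ⟶ D k (Fin (r + 1) → ℤ)}
    (sq₀ : IsPullback p₀ v₀ (toD k (mpw T)) (Dm k (nzr (r + 1))))
    (L : (Fin (r + 1) → ℤ) ≃+ (Fin (r + 1) → ℤ)) (LQ : (Fin (r + 1) → ℚ) ≃+ (Fin (r + 1) → ℚ))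
    (hL : ∀ z, LQ (zqr (r + 1) z) = zqr (r + 1) (L z)) {Y₁ : Scheme.{u}} {a₁ : Y₁ ⟶ Y₀} {b₁ : Y₁ ⟶ D k ℚ}
    (sq₁ : IsPullback a₁ b₁ (v₀ ≫ Dm k L.toAddMonoidHom ≫ Dm k (c0 ℤ r)) (Dm k zq)) (q : ℕ) :
    Nonempty (EtCoh.H Y₁ (EtCoh.const Y₁ (ZMod n)) q ≃+ (Fin (r.choose q) → ZMod n)) := by
  have C := CtxInst.ctx k hn
  -- `Y₁` over `D(ℚ × ℤ^r)`
  have sq₁' : IsPullback a₁ b₁ ((v₀ ≫ Dm k L.toAddMonoidHom) ≫ Dm k (c0 ℤ r)) (Dm k zq) := by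
    rw [Category.assoc]
    exact sq₁
  have w1 : (a₁ ≫ v₀ ≫ Dm k L.toAddMonoidHom) ≫ Dm k (c0 ℤ r) = b₁ ≫ Dm k zq := by
    rw [Category.assoc]
    exact sq₁'.w
  obtain ⟨u, hu1, hu2⟩ : ∃ u : Y₁ ⟶ D k (ℚ × (Fin r → ℤ)), u ≫ Dm k (fz r) =
      a₁ ≫ v₀ ≫ Dm k L.toAddMonoidHom ∧ u ≫ Dm k (AddMonoidHom.inl ℚ (Fin r → ℤ)) = b₁ :=
    ⟨(sq1 k r).lift _ _ w1, (sq1 k r).lift_fst _ _ _, (sq1 k r).lift_snd _ _ _⟩
  have s2 : IsPullback u a₁ (Dm k (fz r)) (v₀ ≫ Dm k L.toAddMonoidHom) := by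
    refine IsPullback.of_right ?_ hu1 (sq1 k r).flip
    rw [hu2]
    exact sq₁'.flip
  -- the universal cover
  have s3 := IsPullback.of_hasPullback v₀ (Dm k (zqr (r + 1)))
  set Y' := pullback v₀ (Dm k (zqr (r + 1)))
  set a' : Y' ⟶ Y₀ := pullback.fst v₀ (Dm k (zqr (r + 1)))
  set b' : Y' ⟶ D k (Fin (r + 1) → ℚ) := pullback.snd v₀ (Dm k (zqr (r + 1)))
  have hpt : HPt Y' n := by
    refine hpt_of_params hn hula B T S hspan hdim (a' ≫ p₀) b' ?_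
    have e : Dm k (zqr (r + 1)) ≫ Dm k (nzr (r + 1)) = Dm k (nqr (r + 1)) := by
      rw [Dm_comp]
      congr 1
    rw [← e]
    exact s3.paste_horiz sq₀
  have s4 : IsPullback (Dm k (zqr (r + 1))) (Dm k LQ.toAddMonoidHom) (Dm k L.toAddMonoidHom)
      (Dm k (zqr (r + 1))) := by
    have i1 : IsIso (Dm k LQ.toAddMonoidHom) := (Diso k LQ).isIso_hom
    have i2 : IsIso (Dm k L.toAddMonoidHom) := (Diso k L).isIso_hom
    refine IsPullback.of_vert_isIso ⟨?_⟩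
    rw [Dm_comp, Dm_comp]
    congr 1
    exact AddMonoidHom.ext fun z => (hL z).symm
  have s5 : IsPullback a' (b' ≫ Dm k LQ.toAddMonoidHom) (v₀ ≫ Dm k L.toAddMonoidHom)
      (Dm k (zqr (r + 1))) := (s3.flip.paste_horiz s4.flip).flip
  -- `Y' ⟶ Y₁`
  rw [← gz_fz, ← Dm_comp] at s5
  obtain ⟨x, hx1, hx2⟩ : ∃ x : Y' ⟶ Y₁, x ≫ u = (b' ≫ Dm k LQ.toAddMonoidHom) ≫ Dm k (gz r) ∧
      x ≫ a₁ = a' :=
    ⟨s2.lift _ _ (by rw [Category.assoc, ← s5.w]), s2.lift_fst _ _ _, s2.lift_snd _ _ _⟩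
  have s6 : IsPullback x (b' ≫ Dm k LQ.toAddMonoidHom) u (Dm k (gz r)) := by
    refine (IsPullback.of_bot ?_ hx1.symm s2).flip
    rw [hx2]
    exact s5.flip
  have s7 := s6.paste_vert (sq2 k r)
  have i1 : IsAffine Y₁ := by
    have : IsAffineHom a₁ := MorphismProperty.of_isPullback sq₁.flip inferInstance
    exact isAffine_of_isAffineHom a₁
  have h1 := hC_pow C r _ _ _ s7 hpt
  obtain ⟨e1⟩ := nonempty_equiv h1 q
  have i2 : IsAlgClosed (ResidueField k) := IsAlgClosed.of_ringEquiv k (ResidueField k)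
    (RingEquiv.ofBijective (algebraMap k (ResidueField k)) (Line.bijective_residue k))
  obtain ⟨e2⟩ := H_pow C (Conn.hpt_strictlyHenselian k n) r q
  exact ⟨e1.trans e2⟩

/-- Functions on a product. -/
theorem nonempty_prodFun (g b : ℕ) (M : Type) [AddCommMonoid M] :
    Nonempty ((Fin g → (Fin b → M)) ≃+ (Fin (g * b) → M)) :=
  ⟨{ (Equiv.curry (Fin g) (Fin b) M).symm.trans
      (Equiv.arrowCongr finProdFinEquiv (Equiv.refl M)) with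
    map_add' := fun _ _ => rfl }⟩

/-- **The structure of the nearby fibre**, ring-theoretic form. -/
theorem core [IsAlgClosed k] [CharZero k] (hula : ∀ n : ℕ, n ≠ 0 → Ula k n)
    (V Osh K Ω : Type u) [CommRing V] [IsDomain V] [IsDiscreteValuationRing V]
    [HenselianLocalRing V] [IsSepClosed (ResidueField V)] [CharZero (ResidueField V)] [Algebra k V]
    (π : V) (hπ : Irreducible π) [Field K] [Algebra V K] [IsFractionRing V K] [Field Ω] [Algebra K Ω]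
    [IsSepClosure K Ω] [Algebra V Ω] [IsScalarTower V K Ω] [CommRing Osh] [IsRegularLocalRing Osh]
    [HenselianLocalRing Osh] [IsSepClosed (ResidueField Osh)] [Algebra k Osh] (α : V →ₐ[k] Osh)
    {r d : ℕ} (T : Fin (r + 1) → Osh) (S : Fin d → Osh)
    (hspan : Ideal.span (Set.range T ∪ Set.range S) = maximalIdeal Osh)
    (hdim : ringKrullDim Osh = (r + 1 + d : ℕ)) (m : Fin (r + 1) → ℕ) (hm : ∀ i, 0 < m i)
    (hprod : ∏ i, T i ^ m i = α π) {Y : Scheme.{u}} {y₁ : Y ⟶ Spec (CommRingCat.of Osh)}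
    {y₂ : Y ⟶ Spec (CommRingCat.of Ω)}
    (sq : IsPullback y₁ y₂ (Spec.map (CommRingCat.ofHom (α : V →+* Osh)))
      (Spec.map (CommRingCat.ofHom (algebraMap V Ω)))) :
    Nat.card (_root_.ConnectedComponents Y) = Finset.univ.gcd m ∧
      ∀ n : ℕ, n ≠ 0 → ∀ q : ℕ, Nonempty (EtCoh.H Y (EtCoh.const Y (ZMod n)) q ≃+
        (Fin (Finset.univ.gcd m * r.choose q) → ZMod n)) := by
  obtain ⟨b, hb⟩ := Groth.Agent.Sga7.H217.PuiseuxSq.isPullback_puiseux V k π hπ K Ω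
  obtain ⟨L, LQ, hL, hLm⟩ := LatIso.exists_iso m hm
  have hg : 0 < Finset.univ.gcd m := by
    refine Nat.pos_of_ne_zero fun h => ?_
    have := Finset.gcd_eq_zero_iff.1 h 0 (Finset.mem_univ 0)
    exact absurd this (hm 0).ne'
  have sq₀ := IsPullback.of_hasPullback (toD k (mpw T)) (Dm k (nzr (r + 1)))
  set Y₀ := pullback (toD k (mpw T)) (Dm k (nzr (r + 1)))
  set p₀ : Y₀ ⟶ _ := pullback.fst (toD k (mpw T)) (Dm k (nzr (r + 1)))
  set v₀ : Y₀ ⟶ _ := pullback.snd (toD k (mpw T)) (Dm k (nzr (r + 1)))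
  have i0 : IsAffine Y₀ := isAffine_of_isAffineHom p₀
  obtain ⟨w, z, hwz⟩ := exists_sqY α (algebraMap V Ω) π hb T m hm hprod sq sq₀
  have eμ : v₀ ≫ Dm k (muZ m) = (v₀ ≫ Dm k L.toAddMonoidHom ≫ Dm k (c0 ℤ r)) ≫
      Dm k (AddMonoidHom.mulLeft ((Finset.univ.gcd m : ℕ) : ℤ)) := by
    rw [Category.assoc, Category.assoc, Dm_comp, Dm_comp]
    congr 2
    exact AddMonoidHom.ext fun a => (hLm a).symm
  rw [eμ] at hwz
  obtain ⟨e⟩ := Groth.Agent.Sga7.H77.Decomp.decomp k (Finset.univ.gcd m) hg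
    (v₀ ≫ Dm k L.toAddMonoidHom ≫ Dm k (c0 ℤ r))
  have sq₁ := IsPullback.of_hasPullback (v₀ ≫ Dm k L.toAddMonoidHom ≫ Dm k (c0 ℤ r)) (Dm k zq)
  set Y₁ := pullback (v₀ ≫ Dm k L.toAddMonoidHom ≫ Dm k (c0 ℤ r)) (Dm k zq)
  have e' : Y ≅ ∐ fun _ : Fin (Finset.univ.gcd m) => Y₁ := hwz.isoPullback ≪≫ e
  have hH : ∀ n : ℕ, n ≠ 0 → ∀ q : ℕ,
      Nonempty (EtCoh.H Y₁ (EtCoh.const Y₁ (ZMod n)) q ≃+ (Fin (r.choose q) → ZMod n)) :=
    fun n hn q => hC_piece hn (hula n hn) Osh T S hspan hdim sq₀ L LQ hL sq₁ q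
  constructor
  · have hc : ConnectedSpace Y₁ := by
      apply Conn.connectedSpace_of_H0
      obtain ⟨e1⟩ := hH 2 two_ne_zero 0
      rw [Nat.choose_zero_right] at e1
      exact ⟨e1.trans (AddEquiv.funUnique (Fin 1) (ZMod 2))⟩
    exact Groth.Agent.Sga7.H77.HSigma.card_sigma e'
  · intro n hn q
    obtain ⟨e1⟩ := hH n hn q
    obtain ⟨e2⟩ := Groth.Agent.Sga7.H77.HSigma.H_sigma n q e'
    obtain ⟨e3⟩ := nonempty_prodFun (Finset.univ.gcd m) (r.choose q) (ZMod n)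
    exact ⟨(e2.trans (AddEquiv.piCongrRight fun _ => e1)).trans e3⟩

end Groth.Agent.Sga7.H763.Assemble
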