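import Groth.Agent.Sga4h.StalkAcyc
import Groth.Agent.Etrest.SHPoint
import Groth.Agent.S0073
import Mathlib.Topology.LocallyConstant.Basic
import Mathlib.SetTheory.Cardinal.Finite

/-!
# Connectedness from degree zero cohomology
-/

set_option autoImplicit false
universe u

open CategoryTheory CategoryTheory.Limits AlgebraicGeometry Opposite IsLocalRing

namespace Groth.Agent.Sga7.H763.Conn

open Groth.Agent.Sga4h.StalkAcyc

theorem connectedSpace_of_card (X : Type*) [TopologicalSpace X] [Nonempty X] {A : Type*}
    (a b : A) (hab : a ≠ b)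
    (h : ∀ f g h : LocallyConstant X A, f = g ∨ f = h ∨ g = h) : ConnectedSpace X := by
  have hp : PreconnectedSpace X := by
    classical
    refine preconnectedSpace_of_forall_constant fun f hf x y => ?_
    have hlc : IsLocallyConstant f := (IsLocallyConstant.iff_continuous f).2 hf
    let F : LocallyConstant X A := ⟨fun x => if f x then a else b, hlc.comp (fun c => if c then a else b)⟩
    obtain ⟨x₀⟩ := ‹Nonempty X›
    have hFF : ∀ c : A, F = LocallyConstant.const X c → f x = f y := by
      intro c hc
      have hx : F x = c := DFunLike.congr_fun hc x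
      have hy : F y = c := DFunLike.congr_fun hc y
      have hxy : (if f x then a else b) = (if f y then a else b) := hx.trans hy.symm
      by_cases h1 : f x <;> by_cases h2 : f y <;> simp_all
    rcases h F (LocallyConstant.const X a) (LocallyConstant.const X b) with h1 | h1 | h1
    · exact hFF a h1
    · exact hFF b h1
    · exact absurd (DFunLike.congr_fun h1 x₀) hab
  exact { toPreconnectedSpace := hp, toNonempty := ‹_› }

/-- A scheme with `H^0(X, ℤ/2) = ℤ/2` is connected. -/
theorem connectedSpace_of_H0 (X : Scheme.{u})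
    (h : Nonempty (EtCoh.H X (EtCoh.const X (ZMod 2)) 0 ≃+ ZMod 2)) : ConnectedSpace X := by
  obtain ⟨e⟩ := h
  have e1 : EtCoh.H X (EtCoh.const X (ZMod 2)) 0 ≃+ EtCoh.sect (EtCoh.const X (ZMod 2)) (EtCoh.top X) :=
    Sheaf.H.equiv₀ _ (EtCore.topIsTerminal X)
  have e2 : EtCoh.sect (EtCoh.const X (ZMod 2)) (EtCoh.top X) ≃+
      LocallyConstant (EtCoh.top X).left (ULift.{u + 1} (ZMod 2)) :=
    (((sheafToPresheaf _ _).mapIso (Groth.Agent.Sga4B.ConstLC.constIso X (ZMod 2))).app
      (op (EtCoh.top X))).addCommGroupIsoToAddEquiv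
  have e3 := e.symm.trans (e1.trans e2)
  have hne : Nonempty X := by
    by_contra hX
    rw [not_nonempty_iff] at hX
    have : IsEmpty (EtCoh.top X).left := hX
    have h1 : Subsingleton (LocallyConstant (EtCoh.top X).left (ULift.{u + 1} (ZMod 2))) :=
      ⟨fun a b => LocallyConstant.ext fun x => isEmptyElim x⟩
    have h2 : Subsingleton (ZMod 2) := e3.toEquiv.subsingleton
    exact absurd (ZMod.subsingleton_iff.1 h2) (by norm_num)
  have hne' : Nonempty (EtCoh.top X).left := hne
  have h3 : ∀ x y z : ZMod 2, x = y ∨ x = z ∨ y = z := by decide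
  refine (connectedSpace_of_card (EtCoh.top X).left (A := ULift.{u + 1} (ZMod 2)) ⟨0⟩ ⟨1⟩ ?_ ?_ :)
  · intro h
    exact absurd (congrArg ULift.down h) (by decide)
  · intro f g h
    rcases h3 (e3.symm f) (e3.symm g) (e3.symm h) with h | h | h
    · exact Or.inl (e3.symm.injective h)
    · exact Or.inr (Or.inl (e3.symm.injective h))
    · exact Or.inr (Or.inr (e3.symm.injective h))

/-- A strictly henselian local ring has the cohomology of a point. -/
theorem hpt_strictlyHenselian (R : Type u) [CommRing R] [HenselianLocalRing R] [IsSepClosed (ResidueField R)]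
    (n : ℕ) : HPt (Spec (CommRingCat.of R)) n := by
  refine ⟨fun q hq => Groth.Agent.S0073.result R _ q hq, ?_⟩
  have h : _root_.IsPreconnected (Set.univ : Set (PrimeSpectrum R)) := by
    apply isPreconnected_of_forall (IsLocalRing.closedPoint R)
    intro y _
    refine ⟨closure {y}, Set.subset_univ _, ?_, subset_closure rfl, isPreconnected_singleton.closure⟩
    exact (IsLocalRing.specializes_closedPoint y).mem_closure
  have h1 : PreconnectedSpace (Spec (CommRingCat.of R)) := ⟨h⟩
  have : ConnectedSpace (Spec (CommRingCat.of R)) := ⟨⟨IsLocalRing.closedPoint R⟩⟩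
  exact Groth.Agent.Etrest.SHPoint.nonempty_H0_const _ _

end Groth.Agent.Sga7.H763.Conn
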