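import Groth.Agent.Sga7.H763.HIso
import Groth.Agent.Sga7.H763.ToD
import Groth.Agent.Sga1.UlaSL
import Groth.Agent.Etdl.H438.SLocBC

/-!
# The universal cover of a punctured tube is acyclic over the base

`R` a strictly henselian local `k`-algebra, `C` the strict localization of `R[T]` at `(m_R, T)`,
`E = Spec C ×_{k[ℕ]} k[ℚ]`.  If `Spec R ⟶ Spec k` is universally locally acyclic for `F`, then
`H^q(Spec R, F) ⟶ H^q(E, F)` is bijective for all `q`.
-/

set_option autoImplicit false
set_option backward.isDefEq.respectTransparency.types false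
universe u

open CategoryTheory CategoryTheory.Limits AlgebraicGeometry Opposite IsLocalRing

namespace Groth.Agent.Sga7.H763.EPiece

open Groth.Agent.Etrest.StrictLoc HIso Dia ToD Groth.Agent.Sga1 UlaGeo UlaRes UlaSL
open Groth.Agent.Etcore Groth.Agent.Etcore.HpullCalc

/-- Local morphisms of strictly local schemes induce isomorphisms on cohomology. -/
theorem hIsom_of_local {R R' : Type u} [CommRing R] [CommRing R'] [HenselianLocalRing R]
    [HenselianLocalRing R'] [IsSepClosed (ResidueField R)] [IsSepClosed (ResidueField R')]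
    (g : Spec (CommRingCat.of R') ⟶ Spec (CommRingCat.of R)) (hg : g (closedPoint R') = closedPoint R)
    (G : EtCoh.Ab (Spec (CommRingCat.of R))) : HIsom g G := by
  intro q
  rcases Nat.eq_zero_or_pos q with rfl | hq
  · exact (bijective_hp_zero_iff g G).2 ((bijective_unitSec_iff g G).2
      (Groth.Agent.Etdl.H438.SLocBC.UB_of_closedPoint g hg G))
  · have h1 := Groth.Agent.S0073.result R G q hq
    have h2 := Groth.Agent.S0073.result R' ((EtCoh.pull g).obj G) q hq
    exact ⟨fun _ _ _ => Subsingleton.elim _ _, fun y => ⟨0, Subsingleton.elim _ _⟩⟩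

variable (k : Type u) [Field k]

theorem poly_hom_ext {R : Type u} [CommRing R] {S : Type u} [CommRing S]
    {f g : Polynomial R →+* S} (h1 : f.comp Polynomial.C = g.comp Polynomial.C)
    (h2 : f Polynomial.X = g Polynomial.X) : f = g :=
  Polynomial.ringHom_ext (fun a => RingHom.congr_fun h1 a) h2

theorem isPushout_poly (R : Type u) [CommRing R] [Algebra k R] :
    IsPushout (CommRingCat.ofHom (algebraMap k R))
      (CommRingCat.ofHom (algebraMap k (AddMonoidAlgebra k ℕ)))
      (CommRingCat.ofHom (Polynomial.C : R →+* Polynomial R))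
      (CommRingCat.ofHom (mk k (algebraMap k (Polynomial R)) (pw (Polynomial.X : Polynomial R)))) := by
  have key : ∀ r : k, mk k (algebraMap k (Polynomial R)) (pw (Polynomial.X : Polynomial R))
      (AddMonoidAlgebra.single 0 r) = Polynomial.C (algebraMap k R r) := by
    intro r
    rw [mk_single, ofAdd_zero, map_one, mul_one]
    rfl
  refine ⟨⟨?_⟩, ⟨PushoutCocone.IsColimit.mk ?_ ?_ ?_ ?_ ?_⟩⟩
  · rw [← CommRingCat.ofHom_comp, ← CommRingCat.ofHom_comp]
    congr 1
    refine RingHom.ext fun r => ?_
    exact (key r).symm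
  · rw [← CommRingCat.ofHom_comp, ← CommRingCat.ofHom_comp]
    congr 1
    refine RingHom.ext fun r => ?_
    exact (key r).symm
  · intro s
    exact CommRingCat.ofHom (Polynomial.eval₂RingHom s.inl.hom
      (s.inr.hom (AddMonoidAlgebra.single 1 1)))
  · intro s
    refine CommRingCat.hom_ext (RingHom.ext fun r => ?_)
    exact Polynomial.eval₂_C _ _
  · intro s
    refine CommRingCat.hom_ext (hom_ext' ?_ ?_)
    · intro r
      have h1 := RingHom.congr_fun (congrArg CommRingCat.Hom.hom s.condition) r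
      refine (congrArg _ (key r)).trans ((Polynomial.eval₂_C _ _).trans ?_)
      exact h1
    · intro m
      change Polynomial.eval₂ s.inl.hom (s.inr.hom (AddMonoidAlgebra.single 1 1))
        (mk k (algebraMap k (Polynomial R)) (pw (Polynomial.X : Polynomial R))
          (AddMonoidAlgebra.single m 1)) = s.inr.hom _
      rw [mk_single, map_one, one_mul, pw_ofAdd, Polynomial.eval₂_X_pow, ← map_pow,
        AddMonoidAlgebra.single_pow, one_pow, nsmul_eq_mul, mul_one, Nat.cast_id]
  · intro s m h1 h2
    refine CommRingCat.hom_ext (poly_hom_ext ?_ ?_)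
    · refine RingHom.ext fun r => ?_
      refine (RingHom.congr_fun (congrArg CommRingCat.Hom.hom h1) r).trans ?_
      exact (Polynomial.eval₂_C _ _).symm
    · have h3 := RingHom.congr_fun (congrArg CommRingCat.Hom.hom h2) (AddMonoidAlgebra.single 1 1)
      refine Eq.trans ?_ (h3.trans (Polynomial.eval₂_X _ _).symm)
      change m.hom _ = m.hom (mk k (algebraMap k (Polynomial R)) (pw (Polynomial.X : Polynomial R))
        (AddMonoidAlgebra.single 1 1))
      rw [mk_single, map_one, one_mul, pw_ofAdd, pow_one]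

/-- `Spec R[X] = Spec R ×_k D k ℕ`. -/
theorem isPullback_poly (R : Type u) [CommRing R] [Algebra k R] :
    IsPullback (Spec.map (CommRingCat.ofHom (Polynomial.C : R →+* Polynomial R)))
      (toD k (pw (Polynomial.X : Polynomial R))) (Spec.map (CommRingCat.ofHom (algebraMap k R)))
      (str k ℕ) :=
  isPullback_SpecMap_of_isPushout _ _ _ _ (isPushout_poly k R)

instance isIso_toD_X : IsIso (toD k (pw (Polynomial.X : Polynomial k))) := by
  have h := isPullback_poly k k
  have h1 : Spec.map (CommRingCat.ofHom (algebraMap k k)) = 𝟙 _ := Spec.map_id _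
  have : IsIso (Spec.map (CommRingCat.ofHom (algebraMap k k))) := by rw [h1]; infer_instance
  exact h.isIso_snd_of_isIso

theorem eval_toD {R A : Type u} [CommRing R] [Algebra k R] [CommRing A] [Algebra k A] (φ : R →+* A)
    (hφ : φ.comp (algebraMap k R) = algebraMap k A) (T : A) :
    Spec.map (CommRingCat.ofHom (Polynomial.eval₂RingHom φ T)) ≫
      toD k (pw (Polynomial.X : Polynomial R)) = toD k (pw T) := by
  rw [toD, toD]
  refine (Spec.map_comp _ _).symm.trans ?_
  rw [← CommRingCat.ofHom_comp]
  congr 2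
  apply hom_ext'
  · intro r
    rw [RingHom.comp_apply, mk_single, mk_single, ofAdd_zero, map_one, map_one, mul_one, mul_one, ← hφ]
    exact Polynomial.eval₂_C _ _
  · intro m
    rw [RingHom.comp_apply, mk_single, mk_single, map_one, map_one, one_mul, one_mul, pw_ofAdd,
      pw_ofAdd]
    exact Polynomial.eval₂_X_pow _ _

/-- From strict localizations of `Spec k[X]` to strict localizations of `D k ℕ`. -/
theorem isStrictLoc_toD {A : Type u} [CommRing A] [IsLocalRing A] [Algebra k A] (T : A)
    (h : IsStrictLoc (Spec.map (CommRingCat.ofHom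
      (Polynomial.eval₂RingHom (algebraMap k A) T)))) : IsStrictLoc (toD k (pw T)) := by
  rw [← eval_toD k (algebraMap k A) rfl T]
  exact h.comp _

/-- The image of the closed point under `toD`, for a non-invertible coordinate. -/
theorem toD_closedPoint {A : Type u} [CommRing A] [IsLocalRing A] [Algebra k A] (T : A)
    (hT : T ∈ maximalIdeal A) :
    toD k (pw T) (closedPoint A) =
      toD k (pw (0 : k)) (closedPoint k) := by
  have h1 : resPt A ≫ toD k (pw T) = spm (algebraMap k (ResidueField A)) ≫ toD k (pw (0 : k)) := by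
    rw [toD, toD]
    refine (Spec.map_comp _ _).symm.trans (Eq.trans ?_ (Spec.map_comp _ _))
    rw [← CommRingCat.ofHom_comp, ← CommRingCat.ofHom_comp]
    congr 2
    apply hom_ext'
    · intro r
      simp only [RingHom.comp_apply, mk_single, ofAdd_zero, map_one, mul_one]
      rfl
    · intro m
      simp only [RingHom.comp_apply, mk_single, map_one, one_mul, pw_ofAdd, map_pow, map_zero]
      rw [(residue_eq_zero_iff T).2 hT]
  have h2 := congrArg (fun q => q (closedPoint (ResidueField A))) h1
  simp only [Scheme.Hom.comp_apply, resPt_closedPoint] at h2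
  rw [h2]
  exact congrArg _ (spec_field_closedPoint _)

theorem hp_bijective_iff_Hpull {X Y : Scheme.{u}} (f : X ⟶ Y) (G : EtCoh.Ab Y) (q : ℕ) :
    Function.Bijective (hp f G q) ↔ Function.Bijective (EtCore.Hpull f G q) :=
  Iff.rfl

theorem lemE {R C : Type u} [CommRing R] [HenselianLocalRing R] [IsSepClosed (ResidueField R)]
    [CommRing C] [IsLocalRing C] [Algebra k R] [Algebra k C] (φ : R →ₐ[k] C)
    (hφ : IsLocalHom φ.toRingHom) (T : C) (hT : T ∈ maximalIdeal C)
    (hτ : IsStrictLoc (Spec.map (CommRingCat.ofHom (Polynomial.eval₂RingHom φ.toRingHom T))))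
    {A : Type u} [CommRing A] [IsLocalRing A] [Algebra k A] (T₀ : A) (hT₀ : T₀ ∈ maximalIdeal A)
    (hσ : IsStrictLoc (Spec.map (CommRingCat.ofHom (Polynomial.eval₂RingHom (algebraMap k A) T₀))))
    {Ω : Type u} [Field Ω] [IsSepClosed Ω] (ω : A →+* Ω) (b : Spec (CommRingCat.of Ω) ⟶ D k ℚ)
    (hsq : IsPullback (Spec.map (CommRingCat.ofHom ω)) b (toD k (pw T₀))
      (Dm k (Nat.castAddMonoidHom ℚ)))
    (F : EtCoh.Ab (Spec (CommRingCat.of R)))
    (hF : SGA4h.IsULARel (Spec.map (CommRingCat.ofHom (algebraMap k R))) F)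
    {E : Scheme.{u}} (e₁ : E ⟶ Spec (CommRingCat.of C)) (e₂ : E ⟶ D k ℚ)
    (sqE : IsPullback e₁ e₂ (toD k (pw T)) (Dm k (Nat.castAddMonoidHom ℚ))) :
    HIsom (e₁ ≫ Spec.map (CommRingCat.ofHom φ.toRingHom)) F := by
  have i1 := hτ.henselian
  have i2 := hτ.sepClosed
  have hφ' : φ.toRingHom.comp (algebraMap k R) = algebraMap k C := φ.comp_algebraMap
  have e1 := eval_toD k φ.toRingHom hφ' T
  -- the map `A ⟶ C`
  obtain ⟨β, hβ, hβ'⟩ := Groth.Agent.Etrest.VCBaseChange.exists_map (isStrictLoc_toD k T₀ hσ)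
    (toD k (pw T)) ((toD_closedPoint k T hT).trans (toD_closedPoint k T₀ hT₀).symm)
  -- universal local acyclicity
  have hLA := hF _ _ (str k ℕ) (toD k (pw (Polynomial.X : Polynomial R)))
    (Spec.map (CommRingCat.ofHom (Polynomial.C : R →+* Polynomial R))) (isPullback_poly k R)
  have hL := fun x => lAt_of_isLARelAt (hLA x)
  have hVC := hL _ A C (toD k (pw T₀)) (Spec.map (CommRingCat.ofHom
    (Polynomial.eval₂RingHom φ.toRingHom T))) (isStrictLoc_toD k T₀ hσ) hτ rfl β (by
      rw [hβ']; exact e1.symm)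
  have w0 : (e₁ ≫ spm β) ≫ toD k (pw T₀) = e₂ ≫ Dm k (Nat.castAddMonoidHom ℚ) := by
    rw [Category.assoc, hβ', sqE.w]
  have sq1 : IsPullback e₁ (hsq.lift (e₁ ≫ spm β) e₂ w0) (spm β) (spm ω) := by
    refine (IsPullback.of_right ?_ ?_ hsq.flip).flip
    · rw [hsq.lift_snd, hβ']
      exact sqE.flip
    · exact hsq.lift_fst _ _ _
  have h1 := fun q => (res_bijective_iff _ _ _ _ rfl q).1 (hVC Ω ω E e₁ _ sq1 q)
  have h2 : HIsom e₁ ((EtCoh.pull (Spec.map (CommRingCat.ofHom φ.toRingHom))).obj F) := by
    have h3 : HIsom e₁ ((EtCoh.pull (Spec.map (CommRingCat.ofHom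
        (Polynomial.eval₂RingHom φ.toRingHom T)))).obj
          ((EtCoh.pull (Spec.map (CommRingCat.ofHom (Polynomial.C : R →+* Polynomial R)))).obj F)) := h1
    refine h3.of_iso ((((EtCore.pullComp _ _).symm ≪≫ EtCore.pullCongr ?_)).app F)
    refine (Spec.map_comp _ _).symm.trans ?_
    rw [← CommRingCat.ofHom_comp]
    congr 2
    refine RingHom.ext fun r => ?_
    exact Polynomial.eval₂_C _ _
  refine (hIso_comp_iff _ _ ?_).2 h2
  exact hIsom_of_local _ (closedPoint_map φ.toRingHom) F

end Groth.Agent.Sga7.H763.EPiece
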