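import Groth.Agent.Sga7.H763.SmBC
import Groth.Agent.Sga7.H763.NZ
import Groth.Agent.Sga7.H763.StepSq
import Groth.Agent.Sga7.H763.EPiece
import Groth.Agent.Sga7.H938.StrictLocInd
import Groth.Agent.Sga7.H560.QSmLim
import Mathlib.RingTheory.Smooth.Basic

/-!
# Base change along `Spec C ×_{k[ℕ]} k[ℚ] ⟶ Spec R`
-/

set_option autoImplicit false
set_option backward.isDefEq.respectTransparency.types false
universe u

open CategoryTheory CategoryTheory.Limits AlgebraicGeometry Opposite IsLocalRing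

namespace Groth.Agent.Sga7.H763.Cov

open Dia ToD GmPow StepSq BCn Groth.Agent.Etdl.H428.SmLim Groth.Agent.Etrest.StrictLoc

theorem isUnit_natCast {k : Type u} [Field k] {P : Scheme.{u}} (p : P ⟶ Spec (CommRingCat.of k)) {n : ℕ}
    (hn : (n : k) ≠ 0) : IsUnit (n : Γ(P, ⊤)) := by
  have h1 : IsUnit (n : k) := isUnit_iff_ne_zero.2 hn
  let φ : k →+* Γ(P, ⊤) := (p.appTop.hom).comp ((Scheme.ΓSpecIso (CommRingCat.of k)).inv.hom)
  have := h1.map φ
  rwa [map_natCast] at this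

variable {k : Type u} [Field k] [CharZero k] {n : ℕ}

theorem bcn_sm {P' P : Scheme.{u}} {g : P' ⟶ P} (hg : IsSmLim g)
    (p : P ⟶ Spec (CommRingCat.of k)) (hn : n ≠ 0) : Bcn n g :=
  SmBC.bcn_of_isSmLim hg (isUnit_natCast p (Nat.cast_ne_zero.2 hn))

/-- Base change along extraction of all roots of a function. -/
theorem bcn_nq {Z E : Scheme.{u}} (u : Z ⟶ D k ℕ) (e₁ : E ⟶ Z) (e₂ : E ⟶ D k ℚ)
    (sq : IsPullback e₁ e₂ u (Dm k nq)) (hn : n ≠ 0) : Bcn n e₁ := by
  have s1 := IsPullback.of_hasPullback u (Dm k (Nat.castAddMonoidHom ℤ))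
  have e : Dm k zq ≫ Dm k (Nat.castAddMonoidHom ℤ) = Dm k nq := by
    rw [Dm_comp]
    congr 1
  let y : E ⟶ pullback u (Dm k (Nat.castAddMonoidHom ℤ)) :=
    pullback.lift e₁ (e₂ ≫ Dm k zq) (by rw [Category.assoc, e, sq.w])
  have y1 : y ≫ pullback.fst u (Dm k (Nat.castAddMonoidHom ℤ)) = e₁ := pullback.lift_fst _ _ _
  have y2 : y ≫ pullback.snd u (Dm k (Nat.castAddMonoidHom ℤ)) = e₂ ≫ Dm k zq :=
    pullback.lift_snd _ _ _
  have s2 : IsPullback y e₂ (pullback.snd u (Dm k (Nat.castAddMonoidHom ℤ))) (Dm k zq) := by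
    refine (IsPullback.of_bot ?_ y2.symm s1.flip).flip
    rw [y1, e]
    exact sq.flip
  have h1 : Bcn n y := bcn_sm ((Groth.Agent.Sga7.H560.QCov.isSmLim_tt k).of_isPullback s2)
    (pullback.fst u (Dm k (Nat.castAddMonoidHom ℤ)) ≫ u ≫ str k ℕ) hn
  have h2 : Bcn n (pullback.fst u (Dm k (Nat.castAddMonoidHom ℤ))) :=
    bcn_sm (Groth.Agent.Sga7.H938.StrictLocInd.isSmLim_of_smooth _) (u ≫ str k ℕ) hn
  rw [← y1]
  exact h1.comp h2

/-- Base change along `E ⟶ Spec C ⟶ Spec R`. -/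
theorem bcn_e {R C : Type u} [CommRing R] [CommRing C] [IsLocalRing C] [Algebra k R] [Algebra k C]
    (φ : R →ₐ[k] C) (T : C)
    (hτ : IsStrictLoc (Spec.map (CommRingCat.ofHom (Polynomial.eval₂RingHom φ.toRingHom T))))
    {E : Scheme.{u}} (e₁ : E ⟶ Spec (CommRingCat.of C)) (e₂ : E ⟶ D k ℚ)
    (sqE : IsPullback e₁ e₂ (toD k (pw T)) (Dm k nq)) (hn : n ≠ 0) :
    Bcn n (e₁ ≫ Spec.map (CommRingCat.ofHom φ.toRingHom)) := by
  have h1 : Bcn n e₁ := bcn_nq _ e₁ e₂ sqE hn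
  have h2 : Bcn n (Spec.map (CommRingCat.ofHom (Polynomial.eval₂RingHom φ.toRingHom T))) := by
    let alg : Algebra (Polynomial R) C := (Polynomial.eval₂RingHom φ.toRingHom T).toAlgebra
    exact bcn_sm (Groth.Agent.Sga7.H938.StrictLocInd.isSmLim_of_isStrictLoc (Polynomial R) C hτ)
      (toD k (pw (Polynomial.X : Polynomial R)) ≫ str k ℕ) hn
  have h3 : Bcn n (Spec.map (CommRingCat.ofHom (Polynomial.C : R →+* Polynomial R))) := by
    have : Smooth (Spec.map (CommRingCat.ofHom (Polynomial.C : R →+* Polynomial R))) := by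
      rw [HasRingHomProperty.Spec_iff (P := @Smooth)]
      have h : Algebra.Smooth R (Polynomial R) := inferInstance
      exact RingHom.smooth_algebraMap.2 h
    exact bcn_sm (Groth.Agent.Sga7.H938.StrictLocInd.isSmLim_of_smooth _)
      (Spec.map (CommRingCat.ofHom (algebraMap k R))) hn
  have e : Spec.map (CommRingCat.ofHom φ.toRingHom) =
      Spec.map (CommRingCat.ofHom (Polynomial.eval₂RingHom φ.toRingHom T)) ≫
        Spec.map (CommRingCat.ofHom (Polynomial.C : R →+* Polynomial R)) := by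
    refine Eq.trans ?_ (Spec.map_comp _ _)
    rw [← CommRingCat.ofHom_comp]
    congr 2
    refine RingHom.ext fun r => ?_
    exact (Polynomial.eval₂_C _ _).symm
  rw [e]
  exact h1.comp (h2.comp h3)

end Groth.Agent.Sga7.H763.Cov
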