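import Groth.Agent.Sga7.H763.EPiece
import Groth.Agent.Sga7.H763.StepSq
import Groth.Agent.Sga7.H640.AddVar
import Groth.Agent.Sga7.H217.PuiseuxSq
import Groth.Agent.S0598
import Groth.Agent.CalgA.RegBasic
import Mathlib.FieldTheory.IsAlgClosed.AlgebraicClosure
import Mathlib.RingTheory.DiscreteValuationRing.TFAE

/-!
# The strict localization of the affine line at the origin and its geometric generic point
-/

set_option autoImplicit false
set_option backward.isDefEq.respectTransparency.types false
universe u

open CategoryTheory CategoryTheory.Limits AlgebraicGeometry Opposite IsLocalRing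

namespace Groth.Agent.Sga7.H763.Line

open Dia ToD GmPow StepSq Groth.Agent.Etrest.StrictLoc

/-- Fields are G-rings. -/
theorem isGRing_field (k : Type u) [Field k] : CAlg.IsGRing k :=
  have : IsAdicComplete (maximalIdeal k) k := by
    rw [IsLocalRing.maximalIdeal_eq_bot]
    infer_instance
  Groth.Agent.S0598.result k

theorem bijective_residue (k : Type u) [Field k] :
    Function.Bijective (algebraMap k (ResidueField k)) :=
  ⟨(algebraMap k (ResidueField k)).injective, residue_surjective⟩

theorem ringKrullDim_field (k : Type u) [Field k] : ringKrullDim k = ((0 : ℕ) : WithBot ℕ∞) := by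
  simp

theorem span_elim0 (k : Type u) [Field k] :
    Ideal.span (Set.range (Fin.elim0 : Fin 0 → k)) = maximalIdeal k := by
  rw [IsLocalRing.maximalIdeal_eq_bot, Set.range_eq_empty, Ideal.span_empty]

theorem exists_line (k : Type u) [Field k] [IsAlgClosed k] [CharZero k] :
    ∃ (A : Type u) (_ : CommRing A) (_ : IsLocalRing A) (_ : Algebra k A) (T₀ : A) (Ω : Type u)
      (_ : Field Ω) (_ : IsSepClosed Ω) (ω : A →+* Ω) (b : Spec (CommRingCat.of Ω) ⟶ D k ℚ),
      T₀ ∈ maximalIdeal A ∧
      IsStrictLoc (Spec.map (CommRingCat.ofHom (Polynomial.eval₂RingHom (algebraMap k A) T₀))) ∧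
      IsPullback (Spec.map (CommRingCat.ofHom ω)) b (toD k (pw T₀)) (Dm k nq) := by
  obtain ⟨A, _, _, _, _, φ, T₀, hloc, hT, hτ, hbij, hG, hspan, hdim⟩ :=
    Groth.Agent.Sga7.H640.AddVar.exists_step k k (bijective_residue k) (isGRing_field k) 0
      (Fin.elim0 : Fin 0 → k) (span_elim0 k) (ringKrullDim_field k)
  have hφ : φ.toRingHom = algebraMap k A := RingHom.ext fun r => φ.commutes r
  rw [hφ] at hτ
  have hdom : IsDomain A := Groth.Agent.CalgA.RegBasic.isDomain A
  have hmax : Ideal.span {T₀} = maximalIdeal A := by
    rw [← hspan]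
    congr 1
    ext x
    constructor
    · rintro rfl
      exact ⟨Fin.last 0, Fin.snoc_last _ _⟩
    · rintro ⟨i, rfl⟩
      refine Fin.lastCases ?_ (fun j => j.elim0) i
      exact Fin.snoc_last _ _
  have hnf : ¬ IsField A := by
    intro h
    rw [ringKrullDim_eq_zero_of_isField h] at hdim
    exact absurd hdim (by norm_num)
  have hp : (maximalIdeal A).IsPrincipal := ⟨⟨T₀, hmax.symm⟩⟩
  have hdvr : IsDiscreteValuationRing A :=
    ((IsDiscreteValuationRing.TFAE A hnf).out 0 4).2 hp
  have hirr : Irreducible T₀ :=
    (IsDiscreteValuationRing.irreducible_iff_uniformizer T₀).2 hmax.symm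
  have hsep := hτ.sepClosed
  have hchar : CharZero (ResidueField A) :=
    charZero_of_injective_algebraMap (algebraMap k (ResidueField A)).injective
  have hchar' : CharZero A := charZero_of_injective_algebraMap (algebraMap k A).injective
  let K := FractionRing A
  have : CharZero K := charZero_of_injective_algebraMap (IsFractionRing.injective A K)
  have : IsSepClosure K (AlgebraicClosure K) :=
    { sep_closed := inferInstance
      separable := inferInstance }
  obtain ⟨b, hb⟩ := Groth.Agent.Sga7.H217.PuiseuxSq.isPullback_puiseux A k T₀ hirr K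
    (AlgebraicClosure K)
  exact ⟨A, inferInstance, inferInstance, inferInstance, T₀, AlgebraicClosure K, inferInstance,
    inferInstance, algebraMap A (AlgebraicClosure K), b, hT, hτ, hb⟩

end Groth.Agent.Sga7.H763.Line
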