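import Groth.Agent.Sga7.H763.BCn
import Groth.Agent.Etdl.H428.RegBC
import Groth.Agent.Sga4h.FinBC

/-!
# Smooth (pro-smooth) base change in the form `Bcn`
-/

set_option autoImplicit false
set_option backward.isDefEq.respectTransparency.types false
universe u

open CategoryTheory CategoryTheory.Limits AlgebraicGeometry Opposite

namespace Groth.Agent.Sga7.H763.SmBC

open BCn Groth.Agent.Etdl.H428.SmLim Groth.Agent.Etdl.H428

/-- Base change along a directed limit of smooth schemes, for sheaves of invertible torsion. -/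
theorem bcn_of_isSmLim {P' P : Scheme.{u}} {g : P' ⟶ P} (hg : IsSmLim g) {n : ℕ}
    (hn : IsUnit (n : Γ(P, ⊤))) : Bcn n g := by
  intro X X' f _ _ f' g' sq F hF
  have hF' : EtPBC.IsTorsionInvertibleOn P F := by
    intro U s x
    refine ⟨U, 𝟙 U, n, ⟨x, rfl⟩, hn, ?_⟩
    rw [op_id, F.obj.map_id]
    exact hF U s
  refine ⟨(RegBC.baseChange_of_isSmLim hg f f' g' sq F hF' 0).2, fun h0 q hq => ?_⟩
  obtain ⟨e⟩ := (RegBC.baseChange_of_isSmLim hg f f' g' sq F hF' q).1
  exact (Functor.map_isZero _ (h0 q hq)).of_iso e.symm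

end Groth.Agent.Sga7.H763.SmBC
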