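import Groth.Agent.Sga7.H763.Line
import Groth.Agent.Sga7.H763.Cov
import Groth.Agent.Sga7.H763.Conn
import Groth.Agent.Sga7.H874.RegParam

/-!
# The tower of strictly local regular rings

`tow`: for every `c` there is a regular henselian local `k`-algebra `R` with regular system of parameters
`t : Fin c → R`, versal among strictly henselian `k`-algebras with `c` non-units, such that
`Spec R ×_{k[ℕ^c]} k[ℚ^c]` has the cohomology of a point.

`hpt_of_params`: the same for every strictly henselian regular local `k`-algebra `B` with `T : Fin c → B` a part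
of a regular system of parameters.
-/

set_option autoImplicit false
set_option backward.isDefEq.respectTransparency.types false
universe u

open CategoryTheory CategoryTheory.Limits AlgebraicGeometry Opposite IsLocalRing

namespace Groth.Agent.Sga7.H763.Tower

open Dia ToD GmPow StepSq HIso BCn Pt Cov Groth.Agent.Etrest.StrictLoc
open Groth.Agent.Sga4h.StalkAcyc

variable (k : Type u) [Field k]

/-- Universal local acyclicity over `k` for sheaves killed by `n`. -/
def Ula (n : ℕ) : Prop :=
  ∀ (R : Type u) [CommRing R] [Algebra k R] (F : EtCoh.Ab (Spec (CommRingCat.of R))),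
    EtCoh.KilledBy n F → SGA4h.IsULARel (Spec.map (CommRingCat.ofHom (algebraMap k R))) F

/-- Stage `c` of the tower. -/
def Tow (n c : ℕ) : Prop :=
  ∃ (R : Type u) (_ : CommRing R) (_ : IsRegularLocalRing R) (_ : HenselianLocalRing R)
    (_ : Algebra k R) (t : Fin c → R),
    Function.Bijective (algebraMap k (ResidueField R)) ∧ CAlg.IsGRing R ∧
    Ideal.span (Set.range t) = maximalIdeal R ∧ ringKrullDim R = c ∧
    (∀ ⦃P : Scheme.{u}⦄ (a : P ⟶ Spec (CommRingCat.of R)) (b : P ⟶ D k (Fin c → ℚ)),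
      IsPullback a b (toD k (mpw t)) (Dm k (nqr c)) → HPt P n) ∧
    ∀ (B : Type u) [CommRing B] [HenselianLocalRing B] [IsSepClosed (ResidueField B)] [Algebra k B]
      (T : Fin c → B), (∀ i, T i ∈ maximalIdeal B) →
      ∃ ψ : R →ₐ[k] B, IsLocalHom ψ.toRingHom ∧ ∀ i, ψ (t i) = T i

variable {k}

theorem isIso_Dm_zero : IsIso (Dm k (nqr 0)) := by
  have h1 : Dm k (nqr 0) ≫ str k (Fin 0 → ℕ) = str k (Fin 0 → ℚ) := Dm_str k _
  have h2 : IsIso (Dm k (nqr 0) ≫ str k (Fin 0 → ℕ)) := by
    rw [h1]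
    infer_instance
  exact IsIso.of_isIso_comp_right _ (str k (Fin 0 → ℕ))

theorem tow_zero [IsAlgClosed k] (n : ℕ) : Tow k n 0 := by
  refine ⟨k, inferInstance, inferInstance, inferInstance, inferInstance, Fin.elim0,
    Line.bijective_residue k, Line.isGRing_field k, Line.span_elim0 k, Line.ringKrullDim_field k, ?_, ?_⟩
  · intro P a b sq
    have i1 := isIso_Dm_zero (k := k)
    have i2 : IsIso a := sq.isIso_fst_of_isIso
    have : IsAlgClosed (ResidueField k) := IsAlgClosed.of_ringEquiv k (ResidueField k)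
      (RingEquiv.ofBijective (algebraMap k (ResidueField k)) (Line.bijective_residue k))
    have : IsSepClosed (ResidueField k) := inferInstance
    exact HPt.of_iso (asIso a).symm (Conn.hpt_strictlyHenselian k n)
  · intro B _ _ _ _ T _
    refine ⟨Algebra.ofId k B, ?_, fun i => i.elim0⟩
    refine ⟨fun a ha => ?_⟩
    rw [isUnit_iff_ne_zero]
    rintro rfl
    have h0 : (Algebra.ofId k B).toRingHom 0 = 0 := map_zero _
    rw [h0] at ha
    exact not_isUnit_zero ha

/-- The image of the closed point under `(R[X] ⟶ B, X ↦ b)`. -/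
theorem eval_closedPoint {R B B' : Type u} [CommRing R] [IsLocalRing R] [CommRing B] [IsLocalRing B]
    [CommRing B'] [IsLocalRing B']
    (φ : R →+* B) [IsLocalHom φ] (b : B) (hb : b ∈ maximalIdeal B)
    (φ' : R →+* B') [IsLocalHom φ'] (b' : B') (hb' : b' ∈ maximalIdeal B') :
    Spec.map (CommRingCat.ofHom (Polynomial.eval₂RingHom φ b)) (closedPoint B) =
      Spec.map (CommRingCat.ofHom (Polynomial.eval₂RingHom φ' b')) (closedPoint B') := by
  have key : ∀ {B : Type u} [CommRing B] [IsLocalRing B] (φ : R →+* B) [IsLocalHom φ] (b : B)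
      (_ : b ∈ maximalIdeal B) (f : Polynomial R),
      Polynomial.eval₂RingHom φ b f ∈ maximalIdeal B ↔ f.coeff 0 ∈ maximalIdeal R := by
    intro B _ _ φ _ b hb f
    have h1 : Polynomial.eval₂RingHom φ b f - φ (f.coeff 0) ∈ maximalIdeal B := by
      have h2 : Polynomial.eval₂RingHom φ b f - φ (f.coeff 0) =
          b * Polynomial.eval₂RingHom φ b f.divX := by
        conv_lhs => rw [← Polynomial.divX_mul_X_add f]
        rw [map_add, map_mul]
        simp
        ring
      rw [h2]
      exact Ideal.mul_mem_right _ _ hb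
    have h3 : Polynomial.eval₂RingHom φ b f ∈ maximalIdeal B ↔ φ (f.coeff 0) ∈ maximalIdeal B := by
      constructor
      · intro h
        have := Ideal.sub_mem _ h h1
        rwa [sub_sub_cancel] at this
      · intro h
        have := Ideal.add_mem _ h1 h
        rwa [sub_add_cancel] at this
    rw [h3, mem_maximalIdeal, mem_nonunits_iff, isUnit_map_iff, mem_maximalIdeal, mem_nonunits_iff]
  apply PrimeSpectrum.ext
  ext f
  exact (key φ b hb f).trans (key φ' b' hb' f).symm

theorem range_cons {R : Type u} {c : ℕ} (t : Fin c → R) (T : R) :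
    Set.range (Fin.cons T t : Fin (c + 1) → R) = Set.range (Fin.snoc t T : Fin (c + 1) → R) := by
  ext x
  constructor
  · rintro ⟨i, rfl⟩
    refine Fin.cases ?_ (fun j => ?_) i
    · exact ⟨Fin.last c, by rw [Fin.snoc_last, Fin.cons_zero]⟩
    · exact ⟨j.castSucc, by rw [Fin.snoc_castSucc, Fin.cons_succ]⟩
  · rintro ⟨i, rfl⟩
    refine Fin.lastCases ?_ (fun j => ?_) i
    · exact ⟨0, by rw [Fin.snoc_last, Fin.cons_zero]⟩
    · exact ⟨j.succ, by rw [Fin.snoc_castSucc, Fin.cons_succ]⟩

/-- The universal property passes to the next stage. -/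
theorem lift_succ {c : ℕ} {R C : Type u} [CommRing R] [IsLocalRing R] [Algebra k R] [CommRing C]
    [IsLocalRing C] [Algebra k C] (t : Fin c → R) (φ : R →ₐ[k] C) (hφ : IsLocalHom φ.toRingHom) (T : C)
    (hT : T ∈ maximalIdeal C)
    (hτ : IsStrictLoc (Spec.map (CommRingCat.ofHom (Polynomial.eval₂RingHom φ.toRingHom T))))
    (B : Type u) [CommRing B] [HenselianLocalRing B] [IsSepClosed (ResidueField B)] [Algebra k B]
    (T' : Fin (c + 1) → B) (hT' : ∀ i, T' i ∈ maximalIdeal B) (ψ₀ : R →ₐ[k] B)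
    (hψ : IsLocalHom ψ₀.toRingHom) (hψt : ∀ i, ψ₀ (t i) = T' i.succ) :
    ∃ ψ : C →ₐ[k] B, IsLocalHom ψ.toRingHom ∧
      ∀ i, ψ ((Fin.cons T (fun i => φ (t i)) : Fin (c + 1) → C) i) = T' i := by
  obtain ⟨g, hg, hg'⟩ := Groth.Agent.Etrest.VCBaseChange.exists_map hτ
    (Spec.map (CommRingCat.ofHom (Polynomial.eval₂RingHom ψ₀.toRingHom (T' 0))))
    (eval_closedPoint ψ₀.toRingHom (T' 0) (hT' 0) φ.toRingHom T hT)
  have h1 : g.comp (Polynomial.eval₂RingHom φ.toRingHom T) =
      Polynomial.eval₂RingHom ψ₀.toRingHom (T' 0) := by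
    rw [← spm_inj, spm_comp]
    exact hg'
  have h2 : ∀ r : R, g (φ r) = ψ₀ r := by
    intro r
    have := RingHom.congr_fun h1 (Polynomial.C r)
    rw [RingHom.comp_apply, Polynomial.coe_eval₂RingHom, Polynomial.eval₂_C,
      Polynomial.coe_eval₂RingHom, Polynomial.eval₂_C] at this
    exact this
  have h3 : g T = T' 0 := by
    have := RingHom.congr_fun h1 Polynomial.X
    rw [RingHom.comp_apply, Polynomial.coe_eval₂RingHom, Polynomial.eval₂_X,
      Polynomial.coe_eval₂RingHom, Polynomial.eval₂_X] at this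
    exact this
  let ψ : C →ₐ[k] B :=
    { g with
      commutes' := fun r => by
        change g (algebraMap k C r) = _
        rw [← φ.commutes r, h2, ψ₀.commutes] }
  refine ⟨ψ, hg, fun i => ?_⟩
  refine Fin.cases ?_ (fun j => ?_) i
  · exact h3
  · exact (h2 (t j)).trans (hψt j)

/-- The next stage. -/
theorem tow_succ [IsAlgClosed k] [CharZero k] {n : ℕ} (hn : n ≠ 0) (hula : Ula k n) {c : ℕ}
    (h : Tow k n c) : Tow k n (c + 1) := by
  obtain ⟨R, _, _, _, _, t, hbij, hG, hspan, hdim, hpt, hlift⟩ := h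
  obtain ⟨C, _, _, _, _, φ, T, hφ, hT, hτ, hbij', hG', hspan', hdim'⟩ :=
    Groth.Agent.Sga7.H640.AddVar.exists_step k R hbij hG c t hspan hdim
  obtain ⟨A, _, _, _, T₀, Ω, _, _, ω, b₀, hT₀, hσ, hsq⟩ := Line.exists_line k
  refine ⟨C, inferInstance, inferInstance, inferInstance, inferInstance,
    Fin.cons T (fun i => φ (t i)), hbij', hG', ?_, hdim', ?_, ?_⟩
  · rw [range_cons]
    exact hspan'
  · intro P' a' b' sqP'
    have : IsAlgClosed (ResidueField R) := IsAlgClosed.of_ringEquiv k (ResidueField R)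
      (RingEquiv.ofBijective (algebraMap k (ResidueField R)) hbij)
    have sqE := IsPullback.of_hasPullback (toD k (pw T)) (Dm k nq)
    have sqP := IsPullback.of_hasPullback (toD k (mpw t)) (Dm k (nqr c))
    obtain ⟨x, y, sq, -⟩ := step sqP' sqE sqP
    have h1 : HPt (pullback (toD k (mpw t)) (Dm k (nqr c))) n := hpt _ _ sqP
    have h2 : HC n x := by
      refine hIsom_baseChange (Nat.pos_of_ne_zero hn) (bcn_e φ T hτ _ _ sqE hn) ?_
        (pullback.fst (toD k (mpw t)) (Dm k (nqr c))) y x sq _ (killedBy_const _ n)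
      intro G hG
      exact EPiece.lemE k φ hφ T hT hτ T₀ hT₀ hσ ω b₀ hsq G (hula R G hG) _ _ sqE
    exact hpt_of_hC h2 h1
  · intro B _ _ _ _ T' hT'
    obtain ⟨ψ₀, hψ, hψt⟩ := hlift B (fun i => T' i.succ) (fun i => hT' i.succ)
    exact lift_succ t φ hφ T hT hτ B T' hT' ψ₀ hψ hψt

theorem tow [IsAlgClosed k] [CharZero k] {n : ℕ} (hn : n ≠ 0) (hula : Ula k n) (c : ℕ) : Tow k n c := by
  induction c with
  | zero => exact tow_zero n
  | succ c ih => exact tow_succ hn hula ih

/-- **The universal cover is acyclic.** -/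
theorem hpt_of_params [IsAlgClosed k] [CharZero k] {n : ℕ} (hn : n ≠ 0) (hula : Ula k n) {c d : ℕ}
    (B : Type u) [CommRing B] [IsRegularLocalRing B] [HenselianLocalRing B]
    [IsSepClosed (ResidueField B)] [Algebra k B] (T : Fin c → B) (S : Fin d → B)
    (hspan : Ideal.span (Set.range T ∪ Set.range S) = maximalIdeal B)
    (hdim : ringKrullDim B = (c + d : ℕ)) {P : Scheme.{u}} (a : P ⟶ Spec (CommRingCat.of B))
    (b : P ⟶ D k (Fin c → ℚ)) (sq : IsPullback a b (toD k (mpw T)) (Dm k (nqr c))) : HPt P n := by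
  obtain ⟨R, _, _, _, _, t, hbij, hG, hspan', hdim', hpt, hlift⟩ := tow hn hula c
  have hT : ∀ i, T i ∈ maximalIdeal B := by
    intro i
    rw [← hspan]
    exact Ideal.subset_span (Or.inl ⟨i, rfl⟩)
  obtain ⟨ψ, hψ, hψt⟩ := hlift B T hT
  have : IsAlgClosed (ResidueField R) := IsAlgClosed.of_ringEquiv k (ResidueField R)
    (RingEquiv.ofBijective (algebraMap k (ResidueField R)) hbij)
  have hsm : Groth.Agent.Etdl.H428.SmLim.IsSmLim (Spec.map (CommRingCat.ofHom ψ.toRingHom)) := by
    let alg : Algebra R B := ψ.toRingHom.toAlgebra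
    have i1 : IsLocalHom (algebraMap R B) := hψ
    let algQ : Algebra ℚ R := ((algebraMap k R).comp (algebraMap ℚ k)).toAlgebra
    have h1 : CAlg.IsRegularHom R B := by
      refine Groth.Agent.Sga7.H874.RegParam.isRegularHom_of_parameters R B hG c d t S hspan' hdim' ?_
        hdim
      rw [← hspan]
      congr 2
      exact congrArg Set.range (funext hψt)
    exact Groth.Agent.Etdl.H428.SmLim.isSmLim_specMap_of_indSmooth
      (Groth.Agent.Etdl.H428.SmLim.indSmooth_of_isRegularHom h1)
  have hbc : Bcn n (Spec.map (CommRingCat.ofHom ψ.toRingHom)) :=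
    bcn_sm hsm (Spec.map (CommRingCat.ofHom (algebraMap k R))) hn
  have sqP := IsPullback.of_hasPullback (toD k (mpw t)) (Dm k (nqr c))
  have e : Spec.map (CommRingCat.ofHom ψ.toRingHom) ≫ toD k (mpw t) = toD k (mpw T) := by
    refine (map_toD k ψ (mpw t)).trans ?_
    congr 1
    refine (comp_mpw (ψ : R →+* B) t).trans ?_
    exact congrArg mpw (funext hψt)
  have w : (a ≫ Spec.map (CommRingCat.ofHom ψ.toRingHom)) ≫ toD k (mpw t) = b ≫ Dm k (nqr c) := by
    rw [Category.assoc, e, sq.w]
  obtain ⟨x, x1, x2⟩ : ∃ x : P ⟶ pullback (toD k (mpw t)) (Dm k (nqr c)),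
      x ≫ pullback.fst (toD k (mpw t)) (Dm k (nqr c)) = a ≫ Spec.map (CommRingCat.ofHom ψ.toRingHom) ∧
        x ≫ pullback.snd (toD k (mpw t)) (Dm k (nqr c)) = b :=
    ⟨pullback.lift _ _ w, pullback.lift_fst _ _ _, pullback.lift_snd _ _ _⟩
  have sq' : IsPullback x a (pullback.fst (toD k (mpw t)) (Dm k (nqr c)))
      (Spec.map (CommRingCat.ofHom ψ.toRingHom)) := by
    refine IsPullback.of_right ?_ x1 sqP.flip
    rw [x2, e]
    exact sq.flip
  have h2 : HC n x := by
    refine hIsom_baseChange (Nat.pos_of_ne_zero hn) hbc ?_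
      (pullback.fst (toD k (mpw t)) (Dm k (nqr c))) a x sq' _ (killedBy_const _ n)
    intro G _
    exact EPiece.hIsom_of_local _ (Groth.Agent.Sga1.UlaSL.closedPoint_map ψ.toRingHom) G
  exact hpt_of_hC h2 (hpt _ _ sqP)

end Groth.Agent.Sga7.H763.Tower
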